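/- The double covers of the alternating groups. -/
import Mathlib

set_option autoImplicit false

namespace Cfsg.Agent.Spn
open Equiv Subgroup
open scoped commutatorElement

variable {α : Type} [DecidableEq α] {G : Type} [Group G]

structure Cov (π : G →* Perm α) (z : G) (T : α → α → G) : Prop where
  cz : ∀ g, g * z = z * g
  z2 : z * z = 1
  pz : π z = 1
  pT : ∀ i j, i ≠ j → π (T i j) = swap i j
  sq : ∀ i j, i ≠ j → T i j * T i j = 1
  sw : ∀ i j, i ≠ j → T j i = z * T i j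
  cj : ∀ a b i j, a ≠ b → i ≠ j → T a b * T i j = z * T (swap a b i) (swap a b j) * T a b

def gen (z : G) (T : α → α → G) (S : Finset α) : Subgroup G :=
  closure {g | g = z ∨ ∃ i ∈ S, ∃ j ∈ S, i ≠ j ∧ g = T i j}

variable {π : G →* Perm α} {z : G} {T : α → α → G}

theorem z_mem (S : Finset α) : z ∈ gen z T S := subset_closure (Or.inl rfl)

theorem T_mem {S : Finset α} {i j : α} (hi : i ∈ S) (hj : j ∈ S) (h : i ≠ j) : T i j ∈ gen z T S :=
  subset_closure (Or.inr ⟨i, hi, j, hj, h, rfl⟩)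

theorem Cov.fix (C : Cov π z T) {S : Finset α} {m : α} (hm : m ∉ S) {g : G} (hg : g ∈ gen z T S) : π g m = m := by
  have : gen z T S ≤ (MulAction.stabilizer (Perm α) m).comap π := (closure_le _).2 (by
    rintro _ (rfl | ⟨i, hi, j, hj, h, rfl⟩)
    · show π _ m = m
      rw [C.pz]; rfl
    · show π _ m = m
      rw [C.pT _ _ h, swap_apply_of_ne_of_ne (fun e : m = i => hm (e ▸ hi)) (fun e : m = j => hm (e ▸ hj))])
  exact this hg

theorem Cov.step (C : Cov π z T) {S : Finset α} {m : α} (hm : m ∉ S) {g : G} (hg : g ∈ gen z T (insert m S)) :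
    g ∈ gen z T S ∨ ∃ a ∈ S, ∃ h ∈ gen z T S, g = T m a * h := by
  have ne : ∀ a ∈ S, m ≠ a := fun a ha e => hm (e ▸ ha)
  have hz : ∀ y, (y ∈ gen z T S ∨ ∃ a ∈ S, ∃ h ∈ gen z T S, y = T m a * h) →
      (z * y ∈ gen z T S ∨ ∃ a ∈ S, ∃ h ∈ gen z T S, z * y = T m a * h) := by
    rintro y (h | ⟨a, ha, h, hh, rfl⟩)
    · exact Or.inl (mul_mem (z_mem S) h)
    · exact Or.inr ⟨a, ha, z * h, mul_mem (z_mem S) hh, by rw [← mul_assoc, ← C.cz, mul_assoc]⟩
  have hb : ∀ b ∈ S, ∀ y, (y ∈ gen z T S ∨ ∃ a ∈ S, ∃ h ∈ gen z T S, y = T m a * h) →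
      (T m b * y ∈ gen z T S ∨ ∃ a ∈ S, ∃ h ∈ gen z T S, T m b * y = T m a * h) := by
    rintro b hb y (h | ⟨a, ha, h, hh, rfl⟩)
    · exact Or.inr ⟨b, hb, y, h, rfl⟩
    · by_cases e : a = b
      · subst e; left; rwa [← mul_assoc, C.sq _ _ (ne a ha), one_mul]
      · refine Or.inr ⟨a, ha, z * T a b * h, mul_mem (mul_mem (z_mem S) (T_mem ha hb e)) hh, ?_⟩
        have := C.cj m a a b (ne a ha) e
        rw [swap_apply_right, swap_apply_of_ne_of_ne (ne b hb).symm (Ne.symm e)] at this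
        rw [← mul_assoc (T m a), ← mul_assoc (T m a), C.cz, mul_assoc z, this, ← mul_assoc, ← mul_assoc, ← mul_assoc, C.z2, one_mul]
  have key : ∀ x ∈ {g | g = z ∨ ∃ i ∈ insert m S, ∃ j ∈ insert m S, i ≠ j ∧ g = T i j}, x⁻¹ = x ∧ ∀ y,
      (y ∈ gen z T S ∨ ∃ a ∈ S, ∃ h ∈ gen z T S, y = T m a * h) →
      (x * y ∈ gen z T S ∨ ∃ a ∈ S, ∃ h ∈ gen z T S, x * y = T m a * h) := by
    rintro _ (rfl | ⟨i, hi, j, hj, h, rfl⟩)
    · exact ⟨inv_eq_of_mul_eq_one_right C.z2, hz⟩
    refine ⟨inv_eq_of_mul_eq_one_right (C.sq _ _ h), ?_⟩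
    rcases Finset.mem_insert.1 hi with ei | hi <;> rcases Finset.mem_insert.1 hj with ej | hj
    · exact absurd (ei.trans ej.symm) h
    · exact ei ▸ hb j hj
    · intro y hy
      rw [C.sw _ _ h.symm, mul_assoc, ej]; exact hz _ (hb i hi y hy)
    · rintro y (hy | ⟨a, ha, y, hy, rfl⟩)
      · exact Or.inl (mul_mem (T_mem hi hj h) hy)
      · refine Or.inr ⟨swap i j a, ?_, z * T i j * y, mul_mem (mul_mem (z_mem S) (T_mem hi hj h)) hy, ?_⟩
        · rw [swap_apply_def]; split_ifs <;> assumption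
        · rw [← mul_assoc, C.cj i j m a h (ne a ha), swap_apply_of_ne_of_ne (ne i hi) (ne j hj), ← C.cz]
          simp only [mul_assoc]
  induction hg using closure_induction_left with
  | one => exact Or.inl (one_mem _)
  | mul_left x hx y _ ih => exact (key x hx).2 y ih
  | inv_mul_cancel x hx y _ ih => rw [(key x hx).1]; exact (key x hx).2 y ih

theorem Cov.ker (C : Cov π z T) (S : Finset α) : ∀ g ∈ gen z T S, π g = 1 → g ∈ zpowers z := by
  induction S using Finset.induction_on with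
  | empty =>
    intro g hg _
    refine (closure_le (zpowers z)).2 ?_ hg
    rintro _ (rfl | ⟨i, hi, -⟩)
    · exact mem_zpowers _
    · simp at hi
  | insert m S hm ih =>
    intro g hg h1
    rcases C.step hm hg with h | ⟨a, ha, h, hh, rfl⟩
    · exact ih g h h1
    · have ne : m ≠ a := fun e => hm (e ▸ ha)
      have := congrArg (fun p : Perm α => p m) h1
      simp only [map_mul, Perm.mul_apply, C.fix hm hh, C.pT _ _ ne, swap_apply_left, Perm.one_apply] at this
      exact absurd this.symm ne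

theorem Cov.ac (C : Cov π z T) {a b i j : α} (h : a ≠ b) (h' : i ≠ j) (h1 : i ≠ a) (h2 : i ≠ b) (h3 : j ≠ a) (h4 : j ≠ b) :
    T a b * T i j = z * T i j * T a b := by
  rw [C.cj _ _ _ _ h h', swap_apply_of_ne_of_ne h1 h2, swap_apply_of_ne_of_ne h3 h4]

section cl
variable [Fintype α]

noncomputable def Qf (α : Type) [Fintype α] : QuadraticForm ℚ (α → ℚ) := QuadraticMap.weightedSumSquares ℚ fun _ => (1 / 2 : ℚ)

theorem polar_Qf (u v : α → ℚ) : QuadraticMap.polar (Qf α) u v = ∑ k, u k * v k := by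
  simp only [QuadraticMap.polar, Qf, QuadraticMap.weightedSumSquares_apply, ← Finset.sum_sub_distrib, Pi.add_apply, smul_eq_mul]
  exact Finset.sum_congr rfl fun k _ => by ring

def rt (i j : α) : α → ℚ := Pi.single i 1 - Pi.single j 1

theorem polar_rt (u : α → ℚ) (i j : α) : QuadraticMap.polar (Qf α) u (rt i j) = u i - u j := by
  simp [polar_Qf, rt, mul_sub, Finset.sum_sub_distrib, Pi.single_apply]

theorem Q_rt {i j : α} (h : i ≠ j) : Qf α (rt i j) = 1 := by
  have := polar_rt (rt i j) i j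
  rw [QuadraticMap.polar_self] at this
  simp [rt, h, h.symm] at this
  simp only [rt]
  linarith

open CliffordAlgebra in
theorem sq_rt {i j : α} (h : i ≠ j) : ι (Qf α) (rt i j) * ι (Qf α) (rt i j) = 1 := by rw [ι_sq_scalar, Q_rt h, map_one]

open CliffordAlgebra in
noncomputable def un (i j : α) : (CliffordAlgebra (Qf α))ˣ :=
  if h : i = j then 1 else ⟨ι (Qf α) (rt i j), ι (Qf α) (rt i j), sq_rt h, sq_rt h⟩

open CliffordAlgebra in
theorem un_val {i j : α} (h : i ≠ j) : (un i j : CliffordAlgebra (Qf α)) = ι (Qf α) (rt i j) := by rw [un, dif_neg h]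

open CliffordAlgebra in
theorem cov : Cov (MonoidHom.snd (CliffordAlgebra (Qf α))ˣ (Perm α)) (-1, 1) fun i j => (un i j, swap i j) where
  cz g := Prod.ext (by simp) (by simp)
  z2 := Prod.ext (by simp) (by simp)
  pz := rfl
  pT _ _ _ := rfl
  sq i j h := Prod.ext (Units.ext (by simp [un_val h, sq_rt h])) (swap_mul_self _ _)
  sw i j h := Prod.ext (Units.ext (by simp [un_val h, un_val h.symm, rt])) (by simp [swap_comm])
  cj a b i j h h' := Prod.ext (Units.ext (by
      have e : rt (swap a b i) (swap a b j) = rt i j - (rt a b i - rt a b j) • rt a b := by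
        funext k
        simp only [rt, swap_apply_def, Pi.sub_apply, Pi.smul_apply, Pi.single_apply, smul_eq_mul]
        split_ifs <;> simp_all
      have e2 := ι_mul_ι_add_swap (Q := Qf α) (rt a b) (rt i j)
      rw [polar_rt, Algebra.algebraMap_eq_smul_one] at e2
      simp only [Prod.fst_mul, Units.val_mul, un_val h, un_val h', un_val ((swap a b).injective.ne h'), e, map_sub, map_smul,
        Units.val_neg, Units.val_one, neg_mul, one_mul, sub_mul, smul_mul_assoc, sq_rt h, ← e2]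
      abel)) (by simp only [Prod.snd_mul, one_mul]; exact mul_swap_eq_swap_mul _ _ _)

theorem z_ne : ((-1, 1) : (CliffordAlgebra (Qf α))ˣ × Perm α) ≠ 1 := fun h => by
  have h1 : (-1 : CliffordAlgebra (Qf α)) = 1 := congrArg (fun p => (p.1 : CliffordAlgebra (Qf α))) h
  have := (algebraMap ℚ (CliffordAlgebra (Qf α))).injective (a₁ := -1) (a₂ := 1) (by rw [map_neg, map_one, h1])
  norm_num at this

theorem Cov.alt (C : Cov π z T) (hz : z ≠ 1) : ∃ (Γ : Type) (_ : Group Γ) (_ : Finite Γ) (z : Γ) (ρ : Γ →* alternatingGroup α),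
    Function.Surjective ρ ∧ ρ.ker = zpowers z ∧ orderOf z = 2 ∧ z ∈ center Γ ∧
      (∀ a b c d : α, [a, b, c, d].Nodup → z ∈ commutator Γ) ∧
      ∀ a b c d a' b' c' d' : α, [a, b, c, d, a', b', c', d'].Nodup → ∃ y : Γ, y * y = 1 ∧ ρ y ≠ 1 := by
  let K := gen z T Finset.univ ⊓ (alternatingGroup α).comap π
  let ρ : K →* alternatingGroup α := (π.comp K.subtype).codRestrict _ fun x => x.2.2
  have zK : z ∈ K := ⟨z_mem _, by show π z ∈ alternatingGroup α; rw [C.pz]; exact one_mem _⟩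
  have oz : orderOf (⟨z, zK⟩ : K) = 2 := orderOf_eq_prime (Subtype.ext (by rw [pow_two]; exact C.z2)) fun h => hz (congrArg Subtype.val h)
  have hk : ρ.ker = zpowers ⟨z, zK⟩ := le_antisymm (fun x hx => by
    obtain ⟨k, hk⟩ := C.ker _ x.1 x.2.1 (congrArg Subtype.val hx)
    exact ⟨k, Subtype.ext hk⟩) (zpowers_le.2 (Subtype.ext C.pz))
  have mem : ∀ {a b c d : α}, a ≠ b → c ≠ d → T a b * T c d ∈ K := fun h h' =>
    ⟨mul_mem (T_mem (Finset.mem_univ _) (Finset.mem_univ _) h) (T_mem (Finset.mem_univ _) (Finset.mem_univ _) h'), by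
      show π _ ∈ alternatingGroup α
      rw [map_mul, C.pT _ _ h, C.pT _ _ h', Perm.mem_alternatingGroup, map_mul, Perm.sign_swap h, Perm.sign_swap h']; rfl⟩
  haveI : Finite ρ.ker := Nat.finite_of_card_ne_zero (by rw [hk, Nat.card_zpowers, oz]; norm_num)
  haveI : Finite (K ⧸ ρ.ker) := Finite.of_injective _ (QuotientGroup.kerLift_injective ρ)
  refine ⟨K, inferInstance, Finite.of_equiv _ (groupEquivQuotientProdSubgroup (s := ρ.ker)).symm, ⟨z, zK⟩, ρ, fun x => ?_, hk, oz,
    mem_center_iff.2 fun g => Subtype.ext (C.cz _), fun a b c d h => ?_, fun a b c d a' b' c' d' h => ?_⟩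
  · have : (⊤ : Subgroup (Perm α)) ≤ (gen z T Finset.univ).map π := by
      rw [← Perm.closure_isSwap, closure_le]
      rintro _ ⟨i, j, h, rfl⟩
      exact ⟨_, T_mem (Finset.mem_univ _) (Finset.mem_univ _) h, C.pT _ _ h⟩
    obtain ⟨g, hg, e⟩ := this (mem_top x.1)
    exact ⟨⟨g, hg, by show π g ∈ alternatingGroup α; rw [e]; exact x.2⟩, Subtype.ext e⟩
  · simp only [List.nodup_cons, List.mem_cons, not_or, List.not_mem_nil, List.nodup_nil] at h
    obtain ⟨⟨ab, ac, ad, -⟩, ⟨bc, bd, -⟩, ⟨cd, -⟩, -⟩ := h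
    have e1 := C.cj c d a c cd ac
    have e2 := C.cj c d b d cd bd
    have e3 := C.cj a b a d ab ad
    have e4 := C.cj a b b c ab bc
    have e5 := C.ac bd ac ab ad (Ne.symm bc) cd
    rw [swap_apply_left, swap_apply_of_ne_of_ne ac ad] at e1
    rw [swap_apply_right, swap_apply_of_ne_of_ne bc bd] at e2
    rw [swap_apply_left, swap_apply_of_ne_of_ne (Ne.symm ad) (Ne.symm bd)] at e3
    rw [swap_apply_right, swap_apply_of_ne_of_ne (Ne.symm ac) (Ne.symm bc)] at e4
    have zz : ∀ x y : G, x * (z * y) = z * (x * y) := fun x y => by rw [← mul_assoc, C.cz, mul_assoc]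
    have z2 : ∀ x : G, z * (z * x) = x := fun x => by rw [← mul_assoc, C.z2, one_mul]
    have r : ∀ {x y w : G}, x * y = w → ∀ u, x * (y * u) = w * u := fun h u => by rw [← mul_assoc, h]
    have e : T a b * T c d * (T a c * T b d) = z * (T a c * T b d * (T a b * T c d)) := by
      simp only [mul_assoc, r e1, e2, zz (T a d), zz (T a b), z2, r e3, r e4, zz (T b d), r e5]
    have : (⟨z, zK⟩ : K) = ⁅(⟨_, mem ab cd⟩ : K), ⟨_, mem ac bd⟩⁆ := Subtype.ext (by
      show z = _ * _ * _⁻¹ * _⁻¹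
      rw [e]; group)
    exact this ▸ commutator_mem_commutator (mem_top _) (mem_top _)
  · simp only [List.nodup_cons, List.mem_cons, not_or, List.not_mem_nil, List.nodup_nil] at h
    obtain ⟨⟨h01, h02, h03, h04, h05, h06, h07, -⟩, ⟨h12, h13, h14, h15, h16, h17, -⟩, ⟨h23, h24, h25, h26, h27, -⟩,
      ⟨h34, h35, h36, h37, -⟩, ⟨h45, h46, h47, -⟩, ⟨h56, h57, -⟩, ⟨h67, -⟩, -⟩ := h
    have zz : ∀ x y : G, x * (z * y) = z * (x * y) := fun x y => by rw [← mul_assoc, C.cz, mul_assoc]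
    have z2 : ∀ x : G, z * (z * x) = x := fun x => by rw [← mul_assoc, C.z2, one_mul]
    have r : ∀ {x y w : G}, x * y = w → ∀ u, x * (y * u) = w * u := fun h u => by rw [← mul_assoc, h]
    refine ⟨⟨_, mem h01 h23⟩ * ⟨_, mem h45 h67⟩, Subtype.ext ?_, fun e => ?_⟩
    · show T a b * T c d * (T a' b' * T c' d') * (T a b * T c d * (T a' b' * T c' d')) = 1
      simp only [mul_assoc, r (C.ac h23 h01 h02 h03 h12 h13), r (C.ac h45 h01 h04 h05 h14 h15), r (C.ac h67 h01 h06 h07 h16 h17),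
        r (C.ac h45 h23 h24 h25 h34 h35), r (C.ac h67 h23 h26 h27 h36 h37), r (C.ac h67 h45 h46 h47 h56 h57), zz (T _ _), z2,
        r (C.sq _ _ h01), r (C.sq _ _ h23), r (C.sq _ _ h45), r (C.sq _ _ h67), C.sq _ _ h01, C.sq _ _ h23, C.sq _ _ h45, C.sq _ _ h67, one_mul, mul_one, C.z2]
    · have : π (T a b * T c d * (T a' b' * T c' d')) a = a := congrArg (fun p : alternatingGroup α => p.1 a) e
      simp only [map_mul, C.pT _ _ h01, C.pT _ _ h23, C.pT _ _ h45, C.pT _ _ h67, Perm.mul_apply, swap_apply_of_ne_of_ne h06 h07,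
        swap_apply_of_ne_of_ne h04 h05, swap_apply_of_ne_of_ne h02 h03, swap_apply_left] at this
      exact h01 this.symm
end cl

end Cfsg.Agent.Spn
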