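/-
Groups with small class sizes.
-/
import Cfsg.Agent.GS.Lem4

namespace Cfsg.Agent.GS

open Subgroup Cfsg.Agent.H1 Cfsg.Agent.BG
open Cfsg.Agent.H2 hiding card_lt_of_lt card_lt_of_ne_top isMulCommutative_of_le isPGroup_zpowers_iff mem_of_pow_mem_of_coprime inf_eq_bot_of_cop exists_maxElem_ge Sec
open Cfsg.Agent.H8 (Op Opp Fit SN)
open Cfsg.Agent.L (FPF)
open scoped commutatorElement Pointwise

universe u
variable {G : Type u} [Group G]
variable {p q r k n : ℕ} {π ρ : Set ℕ} {A B C D E H K L M N P Q R S T U V W X Y Z : Subgroup G} {a b c g v x y z : G}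

/-- `g ↦ ⁅x, g⁆` when commutators with `x` are central -/
def commHom (x : G) (h : ∀ g, ⁅x, g⁆ ∈ center G) : G →* G :=
  MonoidHom.mk' (fun g => ⁅x, g⁆) fun a b => by
    have := mem_center_iff.1 (h b) a
    rw [show ⁅x, a * b⁆ = ⁅x, a⁆ * (a * ⁅x, b⁆) * a⁻¹ by simp only [commutatorElement_def]; group, this]; group

theorem ker_commHom (x : G) (h : ∀ g, ⁅x, g⁆ ∈ center G) : (commHom x h).ker = 𝒞₁ x := by
  ext g; rw [MonoidHom.mem_ker, mem_cent1]; exact commutatorElement_eq_one_iff_mul_comm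

theorem card_range_commHom (x : G) (h : ∀ g, ⁅x, g⁆ ∈ center G) : ♯(commHom x h).range = (𝒞₁ x).index := by
  rw [← ker_commHom x h, index_ker]

theorem mem_cent1_of_comm_cent (h : x * a * x⁻¹ * a⁻¹ ∈ 𝒞₁ x) (hc : (orderOf x).Coprime (orderOf (x * a * x⁻¹ * a⁻¹))) :
    a ∈ 𝒞₁ x := by
  have h1 : ∀ n : ℕ, x ^ n * a * (x ^ n)⁻¹ * a⁻¹ = (x * a * x⁻¹ * a⁻¹) ^ n := fun n => by
    induction n with
    | zero => simp
    | succ n ih =>
      rw [pow_succ _ n, pow_succ _ n, ← ih, show x ^ n * x * a * (x ^ n * x)⁻¹ * a⁻¹ =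
        x ^ n * (x * a * x⁻¹ * a⁻¹) * (x ^ n)⁻¹ * (x ^ n * a * (x ^ n)⁻¹ * a⁻¹) by group,
        ((Commute.pow_left (mem_cent1.1 h) n).eq), mul_inv_cancel_right, ih, ← pow_succ, ← pow_succ']
  have h2 := h1 (orderOf x)
  rw [pow_orderOf_eq_one] at h2
  have h3 := orderOf_eq_one_iff.1 (Nat.eq_one_of_dvd_coprimes hc (orderOf_dvd_of_pow_eq_one (by rw [← h2]; simp)) dvd_rfl)
  rw [mem_cent1, ← mul_inv_eq_one, ← h3]; group

variable [Finite G]

theorem eq_of_relIndex_dvd_prime (hp : p.Prime) (h : U.relIndex V ∣ p) (h1 : V ⊓ U ≤ W) (h2 : ¬ V ≤ W) : V ⊓ W = V ⊓ U := by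
  rcases (Nat.dvd_prime hp).1 h with h | h
  · exact (h2 ((le_inf le_rfl (relIndex_eq_one.1 h)).trans h1)).elim
  · exact (eq_or_eq_of_relIndex_prime (A := V ⊓ U) (B := V) (by rwa [inf_relIndex_left, h]) (le_inf inf_le_left h1)
      inf_le_left).resolve_right fun e => h2 (inf_eq_left.1 e)

/-- Knoche -/
theorem card_commutator_dvd [hp : Fact p.Prime] (hG : IsPGroup p G) (h : ∀ x : G, (𝒞₁ x).index ∣ p) : ♯(_root_.commutator G) ∣ p := by
  have h1 : ∀ x g : G, ⁅x, g⁆ ∈ center G := fun x g => mem_center_iff.2 fun y => mem_cent1.1 <| by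
    rcases (Nat.dvd_prime hp.out).1 (h y) with e | e
    · rw [index_eq_one.1 e]; trivial
    · exact frattini_le_coatom (isCoatom_of_index_prime (e ▸ hp.out)) (commutator_le_frattini hG
        (commutator_mem_commutator (mem_top x) (mem_top g)))
  by_cases h2 : ∃ x : G, 𝒞₁ x ≠ ⊤
  swap
  · rw [show _root_.commutator G = ⊥ from commutator_eq_bot_iff_le_centralizer.2 fun x _ => le_cent1_iff.1 (by
      by_contra e; exact h2 ⟨x, fun e' => e e'.ge⟩)]; simp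
  obtain ⟨x, hx⟩ := h2
  have h3 : ∀ y, 𝒞₁ y ≠ ⊤ → (♯(commHom y (h1 y)).range).Prime := fun y hy => by
    rw [card_range_commHom, ((Nat.dvd_prime hp.out).1 (h y)).resolve_left fun e => hy (index_eq_one.1 e)]; exact hp.out
  refine (card_dvd_of_le (commutator_le.2 fun y _ g _ => ?_)).trans (card_range_commHom x (h1 x) ▸ h x)
  by_contra h4
  have hy : 𝒞₁ y ≠ ⊤ := fun e => h4 (by rw [commutatorElement_eq_one_iff_mul_comm.2 (mem_cent1.1 (e.ge (mem_top g)))]; exact one_mem _)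
  have h5 := inf_eq_bot_of_not_le (h3 y hy) fun e => h4 (e ⟨g, rfl⟩)
  have h6 : 𝒞₁ (x * y) ≤ 𝒞₁ x ⊓ 𝒞₁ y := fun a ha => by
    have e : ⁅y, a⁆ = ⁅x, a⁆⁻¹ := by
      rw [eq_inv_iff_mul_eq_one, ← commutatorElement_eq_one_iff_mul_comm.2 (mem_cent1.1 ha),
        show ⁅x * y, a⁆ = x * ⁅y, a⁆ * x⁻¹ * ⁅x, a⁆ by simp only [commutatorElement_def]; group,
        mem_center_iff.1 (h1 y a) x, mul_inv_cancel_right]
    have h7 : ⁅y, a⁆ = 1 := mem_bot.1 (h5.le (mem_inf.2 ⟨⟨a, rfl⟩, e ▸ inv_mem ⟨a, rfl⟩⟩))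
    exact mem_inf.2 ⟨mem_cent1.2 (commutatorElement_eq_one_iff_mul_comm.1 (inv_eq_one.1 (e ▸ h7))),
      mem_cent1.2 (commutatorElement_eq_one_iff_mul_comm.1 h7)⟩
  have h7 : ∀ z, 𝒞₁ z ≠ ⊤ → 𝒞₁ (x * y) ≤ 𝒞₁ z → 𝒞₁ z = 𝒞₁ (x * y) := fun z h8 h9 => by
    simpa using eq_of_relIndex_dvd_prime hp.out (V := ⊤) (by rw [relIndex_top_right]; exact h _) (inf_le_right.trans h9)
      fun e => h8 (top_le_iff.1 e)
  obtain ⟨a, ha⟩ := exists_not_mem_of_ne_top hx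
  have h8 : ∀ z, a ∉ 𝒞₁ z → (commHom z (h1 z)).range ≤ (commHom a (h1 a)).range := fun z hz =>
    le_of_inf_ne_bot (h3 z fun e => hz (e.ge (mem_top a))) (ne_bot_of_mem (x := ⁅z, a⁆) (mem_inf.2 ⟨⟨a, rfl⟩, by
      rw [← commutatorElement_inv]; exact inv_mem ⟨z, rfl⟩⟩) fun e => hz (mem_cent1.2 (commutatorElement_eq_one_iff_mul_comm.1 e)))
  have h9 := h3 a fun e => ha (mem_cent1.2 (mem_cent1.1 (e.ge (mem_top x))).symm)
  refine h4 (le_of_inf_ne_bot h9 ?_ (h8 y ?_ ⟨g, rfl⟩))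
  · rw [inf_eq_right.2 (h8 x ha)]; exact ne_bot_of_card_prime (h3 x hx)
  · rwa [h7 y hy (h6.trans inf_le_right), ← h7 x hx (h6.trans inf_le_left)]

/-- an abelian `p'`-group of pseudo-reflections -/
theorem cent_relIndex_dvd [hp : Fact p.Prime] (hV : IsPGroup p V) (hc : IsMulCommutative V) (hn : H ≤ 𝒩 V) (hH : (♯H).Coprime p)
    (hd : ⁅H, H⁆ ≤ 𝒞 V) (h : ∀ x ∈ H, (𝒞₁ x).relIndex V ∣ p) : (𝒞 H).relIndex V ∣ p := by
  by_cases h0 : H ≤ 𝒞 V
  · rw [relIndex_eq_one.2 (le_cent_comm.1 h0)]; exact one_dvd _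
  obtain ⟨x, hx, h1⟩ := exists_of_not_le h0
  replace h1 : ¬ V ≤ 𝒞₁ x := mt le_cent1_iff.1 h1
  suffices V ⊓ 𝒞₁ x ≤ 𝒞 H from (relIndex_dvd_of_le_left V this).trans (by rw [inf_relIndex_left]; exact h x hx)
  refine le_cent_comm.1 fun y hy => le_cent1_iff.1 ?_
  by_contra h2
  have h3 : ¬ V ≤ 𝒞₁ y := fun e => h2 (inf_le_left.trans e)
  have h4 : ¬ V ⊓ 𝒞₁ y ≤ 𝒞₁ x := fun e => h2 ((eq_of_relIndex_dvd_prime hp.out (h y hy) e h1).le.trans inf_le_right)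
  have key : ∀ x ∈ H, ∀ y ∈ H, ¬ V ⊓ 𝒞₁ x ≤ 𝒞₁ y → ∀ t ∈ V, y * t * y⁻¹ * t⁻¹ ∈ 𝒞₁ x := fun x hx y hy h2 t ht => by
    have h5 : (V ⊓ 𝒞₁ y) ⊔ (V ⊓ 𝒞₁ x) = V := by
      by_contra h5
      have := eq_of_relIndex_dvd_prime hp.out (h y hy) (le_sup_left (b := V ⊓ 𝒞₁ x))
        fun e => h5 (le_antisymm (sup_le inf_le_left inf_le_left) e)
      exact h2 ((le_inf inf_le_left le_sup_right).trans (this.le.trans inf_le_right))
    obtain ⟨u, hu, w, hw, rfl⟩ := H8.mem_sup_of_norm_right ((le_cent_of_comm hc inf_le_left inf_le_left).trans (cent_le_norm _)) (h5.ge ht)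
    have h6 := (mem_normalizer_iff.1 (hn hy) w).1 hw.1
    rw [show y * (u * w) * y⁻¹ * (u * w)⁻¹ = (y * u * y⁻¹) * (y * w * y⁻¹ * w⁻¹) * u⁻¹ by group, conj_eq_of_mem_cent1 (mem_cent1.2 (mem_cent1.1 hu.2).symm),
      conj_eq_of_mem_cent1 (le_cent1_of_comm hc (mul_mem h6 (inv_mem hw.1)) hu.1)]
    refine mul_mem (mem_cent1.2 ?_) (inv_mem hw.2)
    have h7 := mem_cent1.1 (mul_mem (mem_cent1.2 (mem_cent1.1 hw.2).symm)
      (cent1_le_cent hw.1 (hd (commutator_mem_commutator (inv_mem hx) (inv_mem hy)))))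
    calc _ = y * (x * ⁅x⁻¹, y⁻¹⁆ * w) * y⁻¹ := by simp only [commutatorElement_def]; group
      _ = _ := by rw [← h7]; simp only [commutatorElement_def]; group
  have cop : ∀ x ∈ H, ∀ v ∈ V, (orderOf x).Coprime (orderOf v) := fun x hx v hv =>
    ((coprime_of_pgroup hV hH).symm.coprime_dvd_left (orderOf_dvd_card_of_mem hx)).coprime_dvd_right (orderOf_dvd_card_of_mem hv)
  have h5 : V ⊓ 𝒞₁ (x * y) ≤ 𝒞₁ x ⊓ 𝒞₁ y := fun t ht => by
    have e : y * t * y⁻¹ * t⁻¹ = x⁻¹ * t * x⁻¹⁻¹ * t⁻¹ := by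
      rw [mul_left_inj, ← mul_left_inj y, ← mul_right_inj x, inv_inv]
      simpa [mul_assoc] using mem_cent1.1 ht.2
    have h6 := mul_mem ((mem_normalizer_iff.1 (hn hy) t).1 ht.1) (inv_mem ht.1)
    have h7 : t ∈ 𝒞₁ x := by
      have := mem_cent1_of_comm_cent (x := x⁻¹) (a := t) (e ▸ cent1_le_cent1 (inv_mem (mem_zpowers x)) (key x hx y hy h2 t ht.1))
        (e ▸ cop _ (inv_mem hx) _ h6)
      exact cent1_le_cent1 (by simp) this
    refine mem_inf.2 ⟨h7, mem_cent1.2 ?_⟩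
    rw [← mul_right_inj x, ← mul_assoc, mem_cent1.1 ht.2, ← mul_assoc, ← mem_cent1.1 h7, mul_assoc]
  exact h2 ((eq_of_relIndex_dvd_prime hp.out (h _ (mul_mem hx hy)) (h5.trans inf_le_left) h1).le.trans (h5.trans inf_le_right))

theorem comm_of_class_prime [hp : Fact p.Prime] (hP : IsPGroup p P) (hn : x ∈ 𝒩 P) (hx : (orderOf x).Coprime p) (h1 : x ∉ 𝒞 P)
    (h : ∀ c ∈ P, c ∈ 𝒞₁ x → (𝒞₁ (c * x)).relIndex P ∣ p) : IsMulCommutative P := by
  have h2 : (𝒞₁ x).relIndex P ∣ p := by simpa using h 1 (one_mem _) (one_mem _)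
  replace h1 : ¬ P ≤ 𝒞₁ x := mt le_cent1_iff.1 h1
  have h3 : ((P ⊓ 𝒞₁ x).relIndex P).Prime := by
    rw [inf_relIndex_left, ((Nat.dvd_prime hp.out).1 h2).resolve_left fun e => h1 (relIndex_eq_one.1 e)]; exact hp.out
  have cop : ∀ v ∈ P, (orderOf x).Coprime (orderOf v) := fun v hv => by
    obtain ⟨k, hk⟩ := orderOf_eq_pow_of_mem hP hv
    exact hk ▸ hx.pow_right k
  have h4 : P ≤ 𝒩 (P ⊓ 𝒞₁ x) := (eq_or_eq_of_relIndex_prime h3 (le_inf inf_le_left le_normalizer) inf_le_left).elim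
    (fun e => ((lt_inf_normalizer hP (inf_lt_left.2 h1)).ne' e).elim) inf_eq_left.1
  refine isMulCommutative_of_relIndex_prime inf_le_left (fun c hc => le_cent1_iff.1 ?_) (Or.inl h3)
  have h5 := h c hc.1 hc.2
  rw [cent1_mul_of_coprime (mem_cent1.1 hc.2).symm (cop c hc.1).symm] at h5
  have h6 := eq_of_relIndex_dvd_prime hp.out h5 (inf_le_right.trans inf_le_right) h1
  by_contra h7
  have h8 := eq_of_relIndex_dvd_prime hp.out h5 (inf_le_right.trans inf_le_left) h7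
  obtain ⟨g, hg, h9⟩ := exists_of_not_le h1
  have h10 := mul_mem ((mem_normalizer_iff.1 hn g).1 hg) (inv_mem hg)
  refine h9 (mem_cent1_of_comm_cent (h8.le ⟨h10, mem_cent1.2 ?_⟩).2.2 (cop _ h10))
  have e1 := mem_cent1.1 hc.2
  have e2 := mem_cent1.1 ((mem_normalizer_iff.1 (h4 (inv_mem hg)) c).1 hc).2
  calc _ = (c * x) * g * x⁻¹ * g⁻¹ := by group
    _ = x * g * x⁻¹ * (x * (g⁻¹ * c * g⁻¹⁻¹)) * x⁻¹ * g⁻¹ := by rw [← e1]; group
    _ = _ := by rw [e2]; group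

theorem relIndex_dvd_of_sqfree [hp : Fact p.Prime] [P.Normal] (hP : IsPGroup p P) (h : ¬ p ^ 2 ∣ (𝒞₁ x).index) :
    (𝒞₁ x).relIndex P ∣ p := by
  obtain ⟨k, hk⟩ := exists_relIndex_eq_pow hP (𝒞₁ x)
  have h1 := relIndex_dvd_index_of_normal_right (𝒞₁ x) P
  rw [hk] at h1 ⊢
  simpa using pow_dvd_pow p (show k ≤ 1 by by_contra! h2; exact h ((pow_dvd_pow p h2).trans h1))

/-- minimal normal subgroups have prime order -/
theorem card_min_normal_prime [hp : Fact p.Prime] (hs : Group.IsSolvable G) [V.Normal] (h1 : V ≠ ⊥) (hV : IsElementaryAbelian p V)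
    (hm : ∀ M : Subgroup G, M.Normal → M ≤ V → M = ⊥ ∨ M = V)
    (h : ∀ q : ℕ, q.Prime → q ≠ p → ∀ x : G, (∃ k, orderOf x = q ^ k) → ¬ p ^ 2 ∣ (𝒞₁ x).index) : ♯V = p := by
  have hP : IsPGroup p V := isPGroup_iff_forall.2 fun x hx => ⟨1, by simpa using hV.2 x hx⟩
  suffices ♯V ∣ p from ((Nat.dvd_prime hp.out).1 this).resolve_left fun e => h1 (card_eq_one.1 e)
  by_cases h2 : 𝒞 V = ⊤
  · obtain ⟨Y, h3, h4⟩ := exists_card_eq_of_pgroup hP h1
    rw [← (hm Y (normal_iff_top_le.2 ((le_cent_comm.1 (h3.trans (le_cent_comm.1 h2.ge))).trans (cent_le_norm _))) h3).resolve_left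
      (ne_bot_of_card_eq h4), h4]
  have := nontrivial_quotient_of_ne_top h2
  obtain ⟨Z, q, h3, h4, -, hq, h5, -⟩ := exists_minimal_normal_elementary (⊤ : Subgroup (G ⧸ 𝒞 V)) top_ne_bot inferInstance
  have := Fact.mk hq
  obtain ⟨Q, h6, -, hQ⟩ := exists_lift_pgroup (𝒞 V) (isPGroup_iff_forall.2 fun x hx => ⟨1, by simpa using h5.2 x hx⟩) IsPGroup.of_bot bot_le
  have h7 : Q ⊔ 𝒞 V = Z.comap (QuotientGroup.mk' _) := by rw [← hQ, comap_map_mk', sup_comm]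
  have h8 : V ⊓ 𝒞 Q = V ⊓ 𝒞 (Z.comap (QuotientGroup.mk' (𝒞 V))) := by
    rw [← h7]; exact le_antisymm (le_inf inf_le_left (le_cent_comm.1 (sup_le (le_cent_comm.1 inf_le_right)
      (centralizer_anti inf_le_left)))) (inf_le_inf_left _ (centralizer_anti le_sup_left))
  have h9 : V ⊓ 𝒞 Q = ⊥ := (hm _ (h8 ▸ inferInstance) inf_le_left).resolve_right fun e =>
    h4 (hQ ▸ map_mk'_eq_bot_iff.2 (le_cent_comm.1 (inf_eq_left.1 e)))
  have hqp : q ≠ p := by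
    rintro rfl
    exact inf_centralizer_ne_bot_of_isPGroup hP h6.pgrp le_normalizer_of_normal h1 h9
  rw [← relIndex_bot_left, ← h9, inf_relIndex_left]
  refine cent_relIndex_dvd hP hV.1 le_normalizer_of_normal (coprime_primes_pgroup h6.pgrp hqp) ?_ fun x hx =>
    relIndex_dvd_of_sqfree hP (h q hq hqp x (orderOf_eq_pow_of_mem h6.pgrp hx))
  rw [← map_mk'_eq_bot_iff, map_commutator, hQ]; exact comm_iff_der.1 h5.1

theorem super_of_sqfree (hs : Group.IsSolvable G)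
    (h : ∀ p q : ℕ, p.Prime → q.Prime → ∀ x : G, (∃ k, orderOf x = q ^ k) → ¬ p ^ 2 ∣ (𝒞₁ x).index) : IsSupersolvable G := by
  refine isSupersolvable_of_forall_exists_prime fun N _ h1 => ?_
  have := nontrivial_quotient_of_ne_top h1
  obtain ⟨V, p, h3, h4, -, hp, h5, h6⟩ := exists_minimal_normal_elementary (⊤ : Subgroup (G ⧸ N)) top_ne_bot inferInstance
  have := Fact.mk hp
  refine ⟨V.comap (QuotientGroup.mk' N), inferInstance, le_comap_mk'' N V, ?_⟩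
  rw [relIndex_comap_mk', card_min_normal_prime inferInstance h4 h5 h6 fun q hq _ x hx => ?_]; exact hp
  have := Fact.mk hq
  obtain ⟨y, hy, rfl⟩ := exists_lift_pelt N hx
  exact fun e => h p q hp hq y hy (e.trans (index_cent1_quot_dvd y))

theorem card_commutator_dvd_of_pgroup [hp : Fact p.Prime] (hs : Group.IsSolvable G) (hd : IsPGroup p (_root_.commutator G))
    (h : ∀ x : G, ¬ p ^ 2 ∣ (𝒞₁ x).index) : ♯(_root_.commutator G) ∣ p := by
  obtain ⟨P, hP, h1⟩ := exists_sylIn_ge hd le_top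
  have : P.Normal := L.normal_of_commutator_le h1
  obtain ⟨H, hH⟩ := exists_hall {p}ᶜ hs
  have h2 := (piG_compl_iff hp.out).1 hH.1
  have h3 : ⁅H, H⁆ = ⊥ := BG.eq_bot_mono (BG.inf_eq_bot_of_cop (coprime_of_pgroup hP.pgrp h2))
    (le_inf ((commutator_mono le_top le_top).trans h1) (der_le H))
  have h4 : P ⊔ H = ⊤ := hall_sup_compl (sylIn_iff_hall.1 hP) (isPiHallOf_top.2 hH)
  rw [← der_top, ← h4, der_sup_eq, h3, sup_bot_eq]
  by_cases h5 : H ≤ 𝒞 P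
  · rw [le_cent_iff_comm.1 (le_cent_comm.1 h5), sup_bot_eq, ← map_subtype_commutator, card_map_of_injective P.subtype_injective]
    exact card_commutator_dvd hP.pgrp fun x => index_cent1_sub x ▸ relIndex_dvd_of_sqfree hP.pgrp (h x)
  obtain ⟨x, hx, h6⟩ := exists_of_not_le h5
  have hc := comm_of_class_prime hP.pgrp (mem_norm_of_normal P x) (h2.coprime_dvd_left (orderOf_dvd_card_of_mem hx)) h6
    fun c _ _ => relIndex_dvd_of_sqfree hP.pgrp (h _)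
  have h7 := cent_relIndex_dvd hP.pgrp hc le_normalizer_of_normal h2 (h3 ▸ bot_le) fun x _ => relIndex_dvd_of_sqfree hP.pgrp (h x)
  rw [comm_iff_der.1 hc, bot_sup_eq, card_commutator_eq_of_relIndex_prime le_normalizer_of_normal (coprime_of_pgroup hP.pgrp h2).symm
    (Or.inr (isSolvable_of_isPGroup hP.pgrp)) hp.out]
  rw [inf_relIndex_left]
  exact ((Nat.dvd_prime hp.out).1 h7).resolve_left fun e => h5 (le_cent_comm.1 (relIndex_eq_one.1 e))

end Cfsg.Agent.GS
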