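import Mathlib

set_option autoImplicit false

namespace Cfsg.Agent.H1.Wr3

structure Rel {G : Type*} [Group G] (a x t : G) : Prop where
  ha : a ^ 3 = 1
  hx : x ^ 3 = 1
  ht : t ^ 2 = 1
  htx : t * x = x ^ 2 * t
  hta : t * a = a * t
  c01 : Commute a (x * a * x ^ 2)
  c02 : Commute a (x ^ 2 * a * x)
  c12 : Commute (x * a * x ^ 2) (x ^ 2 * a * x)

def Fn {G : Type*} [Group G] (a x t : G) (i j k m e : ℕ) : G :=
  a ^ i * (x * a * x ^ 2) ^ j * (x ^ 2 * a * x) ^ k * x ^ m * t ^ e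

abbrev U := Fin 3 × Fin 3 × Fin 3 × Fin 3 × Fin 2

def F {G : Type*} [Group G] (a x t : G) (u : U) : G :=
  Fn a x t u.1 u.2.1 u.2.2.1 u.2.2.2.1 u.2.2.2.2

variable {G : Type*} [Group G] {a x t : G}

theorem x3 (h : Rel a x t) (y : G) : x * (x * (x * y)) = y := by
  have := h.hx
  rw [← mul_assoc, ← mul_assoc, ← pow_three', this, one_mul]

theorem s0 (h : Rel a x t) : SemiconjBy x a (x * a * x ^ 2) := by
  have : x ^ 2 * x = 1 := by rw [← pow_succ]; exact h.hx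
  unfold SemiconjBy; rw [mul_assoc (x * a), this, mul_one]

theorem s1 (h : Rel a x t) : SemiconjBy x (x * a * x ^ 2) (x ^ 2 * a * x) := by
  unfold SemiconjBy; simp only [pow_two, mul_assoc]

theorem s2 (h : Rel a x t) : SemiconjBy x (x ^ 2 * a * x) a := by
  unfold SemiconjBy; simp only [pow_two, mul_assoc, x3 h]

theorem tx2 (h : Rel a x t) : t * x ^ 2 = x * t := by
  have : SemiconjBy t (x ^ 2) ((x ^ 2) ^ 2) := SemiconjBy.pow_right h.htx 2
  rw [this.eq, ← pow_mul, show 2 * 2 = 3 + 1 from rfl, pow_succ, h.hx, one_mul]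

theorem t1 (h : Rel a x t) : SemiconjBy t (x * a * x ^ 2) (x ^ 2 * a * x) :=
  SemiconjBy.mul_right (SemiconjBy.mul_right h.htx h.hta) (tx2 h)

theorem t2 (h : Rel a x t) : SemiconjBy t (x ^ 2 * a * x) (x * a * x ^ 2) :=
  SemiconjBy.mul_right (SemiconjBy.mul_right (tx2 h) h.hta) h.htx

theorem a13 (h : Rel a x t) : (x * a * x ^ 2) ^ 3 = 1 := by
  have := ((s0 h).pow_right 3).eq
  rw [h.ha, mul_one] at this
  exact mul_right_cancel (b := x) (by rw [← this, one_mul])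

theorem a23 (h : Rel a x t) : (x ^ 2 * a * x) ^ 3 = 1 := by
  have := ((s1 h).pow_right 3).eq
  rw [a13 h, mul_one] at this
  exact mul_right_cancel (b := x) (by rw [← this, one_mul])

theorem red (h : Rel a x t) (i j k m e : ℕ) : ∃ w, Fn a x t i j k m e = F a x t w := by
  refine ⟨(⟨i % 3, Nat.mod_lt _ (by norm_num)⟩, ⟨j % 3, Nat.mod_lt _ (by norm_num)⟩, ⟨k % 3, Nat.mod_lt _ (by norm_num)⟩,
    ⟨m % 3, Nat.mod_lt _ (by norm_num)⟩, ⟨e % 2, Nat.mod_lt _ (by norm_num)⟩), ?_⟩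
  simp only [F, Fn]
  rw [← pow_eq_pow_mod i h.ha, ← pow_eq_pow_mod j (a13 h), ← pow_eq_pow_mod k (a23 h), ← pow_eq_pow_mod m h.hx,
    ← pow_eq_pow_mod e h.ht]

theorem rot (h : Rel a x t) (i j k : ℕ) :
    x * (a ^ i * (x * a * x ^ 2) ^ j * (x ^ 2 * a * x) ^ k) = a ^ k * (x * a * x ^ 2) ^ i * (x ^ 2 * a * x) ^ j * x := by
  have := ((((s0 h).pow_right i).mul_right ((s1 h).pow_right j)).mul_right ((s2 h).pow_right k)).eq
  rw [this]; congr 1
  rw [mul_assoc (a ^ k)]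
  exact (((h.c01.pow_pow k i).mul_right (h.c02.pow_pow k j)).eq).symm

theorem lx (h : Rel a x t) (i j k m e : ℕ) : x * Fn a x t i j k m e = Fn a x t k i j (m + 1) e := by
  unfold Fn
  rw [← mul_assoc, ← mul_assoc, rot h, pow_succ' x m, mul_assoc _ x]

theorem la (i j k m e : ℕ) : a * Fn a x t i j k m e = Fn a x t (i + 1) j k m e := by
  unfold Fn
  simp only [pow_succ' a i, mul_assoc]

theorem lt' (h : Rel a x t) (i j k m e : ℕ) : t * Fn a x t i j k m e = Fn a x t i k j (2 * m) (e + 1) := by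
  unfold Fn
  have h0 : SemiconjBy t a a := h.hta
  have h3 : SemiconjBy t x (x ^ 2) := h.htx
  have := ((((h0.pow_right i).mul_right ((t1 h).pow_right j)).mul_right ((t2 h).pow_right k)).mul_right (h3.pow_right m)).eq
  rw [← mul_assoc, this, pow_succ' t e, ← mul_assoc, pow_mul, mul_assoc (a ^ i) ((x ^ 2 * a * x) ^ j),
    ← (h.c12.pow_pow k j).eq, ← mul_assoc (a ^ i)]

theorem mul_closed (h : Rel a x t) (u v : U) : ∃ w, F a x t u * F a x t v = F a x t w := by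
  let M : Submonoid G :=
    { carrier := {g | ∀ v, ∃ w, g * F a x t v = F a x t w}
      one_mem' := fun v => ⟨v, one_mul _⟩
      mul_mem' := fun {g g'} hg hg' v => by
        obtain ⟨w, hw⟩ := hg' v
        obtain ⟨w', hw'⟩ := hg w
        exact ⟨w', by rw [mul_assoc, hw, hw']⟩ }
  have ha : a ∈ M := fun v => by unfold F; rw [la]; exact red h ..
  have hx : x ∈ M := fun v => by unfold F; rw [lx h]; exact red h ..
  have ht : t ∈ M := fun v => by unfold F; rw [lt' h]; exact red h ..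
  have : F a x t u ∈ M := by
    unfold F Fn
    exact mul_mem (mul_mem (mul_mem (mul_mem (pow_mem ha _) (pow_mem (mul_mem (mul_mem hx ha) (pow_mem hx _)) _))
      (pow_mem (mul_mem (mul_mem (pow_mem hx _) ha) hx) _)) (pow_mem hx _)) (pow_mem ht _)
  exact this v

theorem Rel.prod {P : Type*} [Group P] {a' x' t' : P} (h : Rel a x t) (h' : Rel a' x' t') :
    Rel ((a, a') : G × P) (x, x') (t, t') where
  ha := Prod.ext h.ha h'.ha
  hx := Prod.ext h.hx h'.hx
  ht := Prod.ext h.ht h'.ht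
  htx := Prod.ext h.htx h'.htx
  hta := Prod.ext h.hta h'.hta
  c01 := Prod.ext h.c01.eq h'.c01.eq
  c02 := Prod.ext h.c02.eq h'.c02.eq
  c12 := Prod.ext h.c12.eq h'.c12.eq

theorem iso {P : Type*} [Group P] {a' x' t' : P} (h : Rel a x t) (h' : Rel a' x' t')
    (b : Function.Bijective (F a x t)) (b' : Function.Bijective (F a' x' t')) : Nonempty (G ≃* P) := by
  refine ⟨{ (Equiv.ofBijective _ b).symm.trans (Equiv.ofBijective _ b') with map_mul' := fun g g' => ?_ }⟩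
  obtain ⟨u, rfl⟩ := b.2 g
  obtain ⟨v, rfl⟩ := b.2 g'
  obtain ⟨w, hw⟩ := mul_closed (h.prod h') u v
  have h1 : F a x t u * F a x t v = F a x t w := congrArg Prod.fst hw
  have h2 : F a' x' t' u * F a' x' t' v = F a' x' t' w := congrArg Prod.snd hw
  rw [h1]
  simp only [Equiv.toFun_as_coe, Equiv.trans_apply, Equiv.ofBijective_symm_apply_apply, Equiv.ofBijective_apply, h2]

def B (a x : G) (i j k : ℕ) : G := a ^ i * (x * a * x ^ 2) ^ j * (x ^ 2 * a * x) ^ k

theorem Badd (h : Rel a x t) (i j k i' j' k' : ℕ) : B a x (i + i') (j + j') (k + k') = B a x i j k * B a x i' j' k' := by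
  unfold B
  rw [pow_add, pow_add, pow_add, (h.c01.pow_pow i' j).mul_mul_mul_comm,
    ((h.c02.pow_pow i' k).mul_left (h.c12.pow_pow j' k)).mul_mul_mul_comm]

theorem Bmod (h : Rel a x t) (i j k : ℕ) : B a x (i % 3) (j % 3) (k % 3) = B a x i j k := by
  unfold B
  rw [← pow_eq_pow_mod i h.ha, ← pow_eq_pow_mod j (a13 h), ← pow_eq_pow_mod k (a23 h)]

theorem Brot (h : Rel a x t) {i j k : ℕ} (e : B a x i j k = 1) : B a x k i j = 1 := by
  have := rot h i j k
  change x * B a x i j k = B a x k i j * x at this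
  rw [e, mul_one] at this
  exact mul_right_cancel (b := x) (by rw [← this, one_mul])

theorem Bsm (h : Rel a x t) {i j k : ℕ} (e : B a x i j k = 1) (p : ℕ) : B a x (p * i) (p * j) (p * k) = 1 := by
  induction p with
  | zero => simp [B]
  | succ p ih => rw [add_mul, add_mul, add_mul, Badd h, ih, one_mul, one_mul, one_mul, one_mul, e]

theorem Bind (h : Rel a x t) (hN : B a x 1 1 1 ≠ 1) (i j k : ℕ) (e : B a x i j k = 1) :
    i % 3 = 0 ∧ j % 3 = 0 ∧ k % 3 = 0 := by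
  rw [← Bmod h] at e
  have key : ∀ i j k : Fin 3, (i.1 = 0 ∧ j.1 = 0 ∧ k.1 = 0) ∨ ∃ p q r : Fin 3,
      (p.1 * i.1 + q.1 * k.1 + r.1 * j.1) % 3 = 1 ∧ (p.1 * j.1 + q.1 * i.1 + r.1 * k.1) % 3 = 1 ∧
      (p.1 * k.1 + q.1 * j.1 + r.1 * i.1) % 3 = 1 := by decide
  rcases key ⟨i % 3, Nat.mod_lt _ (by norm_num)⟩ ⟨j % 3, Nat.mod_lt _ (by norm_num)⟩ ⟨k % 3, Nat.mod_lt _ (by norm_num)⟩ with
    h0 | ⟨p, q, r, h1, h2, h3⟩
  · exact h0
  · exfalso; apply hN
    have := Bmod h (p.1 * (i % 3) + q.1 * (k % 3) + r.1 * (j % 3)) (p.1 * (j % 3) + q.1 * (i % 3) + r.1 * (k % 3))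
      (p.1 * (k % 3) + q.1 * (j % 3) + r.1 * (i % 3))
    simp only at h1 h2 h3
    rw [h1, h2, h3, Badd h, Badd h, Bsm h e, Bsm h (Brot h e), Bsm h (Brot h (Brot h e))] at this
    simpa using this

theorem Binj (h : Rel a x t) (hN : B a x 1 1 1 ≠ 1) (i j k i' j' k' : Fin 3) (e : B a x i j k = B a x i' j' k') :
    i = i' ∧ j = j' ∧ k = k' := by
  have e2 : B a x (i + 2 * i') (j + 2 * j') (k + 2 * k') = 1 := by
    rw [Badd h, e, ← Badd h, ← Bmod h, show ((i' : ℕ) + 2 * i') % 3 = 0 by omega, show ((j' : ℕ) + 2 * j') % 3 = 0 by omega,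
      show ((k' : ℕ) + 2 * k') % 3 = 0 by omega]
    simp [B]
  obtain ⟨h1, h2, h3⟩ := Bind h hN _ _ _ e2
  refine ⟨Fin.ext ?_, Fin.ext ?_, Fin.ext ?_⟩ <;> omega

theorem Finj (h : Rel a x t) (hN : B a x 1 1 1 ≠ 1) (J S : Subgroup G) [J.Normal] (hJS : J ≤ S) (haJ : a ∈ J) (hxS : x ∈ S)
    (hxJ : x ∉ J) (htS : t ∉ S) : Function.Injective (F a x t) := by
  have hB : ∀ i j k, B a x i j k ∈ J := fun i j k => by
    have h1 : x * a * x ^ 2 ∈ J := by
      have := (s0 h).eq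
      rw [← mul_inv_eq_iff_eq_mul] at this
      rw [← this]; exact ‹J.Normal›.conj_mem _ haJ _
    have h2 : x ^ 2 * a * x ∈ J := by
      have := (s1 h).eq
      rw [← mul_inv_eq_iff_eq_mul] at this
      rw [← this]; exact ‹J.Normal›.conj_mem _ h1 _
    exact mul_mem (mul_mem (pow_mem haJ _) (pow_mem h1 _)) (pow_mem h2 _)
  have hx2 : x ^ 2 ∉ J := fun h2 => hxJ (by
    have := pow_mem h2 2
    rwa [← pow_mul, show 2 * 2 = 3 + 1 from rfl, pow_succ, h.hx, one_mul] at this)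
  rintro ⟨i, j, k, m, e⟩ ⟨i', j', k', m', e'⟩ he
  change B a x i j k * x ^ m.1 * t ^ e.1 = B a x i' j' k' * x ^ m'.1 * t ^ e'.1 at he
  have p1 : B a x i j k * x ^ m.1 ∈ S := mul_mem (hJS (hB ..)) (pow_mem hxS _)
  have p2 : B a x i' j' k' * x ^ m'.1 ∈ S := mul_mem (hJS (hB ..)) (pow_mem hxS _)
  have ee : e = e' := by
    fin_cases e <;> fin_cases e'
    · rfl
    · simp only [pow_zero, pow_one, mul_one] at he
      exact absurd ((S.mul_mem_cancel_left p2).1 (he ▸ p1)) htS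
    · simp only [pow_zero, pow_one, mul_one] at he
      exact absurd ((S.mul_mem_cancel_left p1).1 (he ▸ p2)) htS
    · rfl
  subst ee
  have he2 := mul_right_cancel he
  have q : ∀ m m' : ℕ, ∀ b b' : G, b ∈ J → b' ∈ J → b * x ^ m = b' * x ^ (m + m') → x ^ m' ∈ J := fun m m' b b' hb hb' e => by
    rw [add_comm, pow_add, ← mul_assoc] at e
    exact (J.mul_mem_cancel_left hb').1 (mul_right_cancel e ▸ hb)
  have mm : m = m' := by
    fin_cases m <;> fin_cases m'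
    · rfl
    · exact absurd (by simpa using q 0 1 _ _ (hB ..) (hB ..) he2) hxJ
    · exact absurd (q 0 2 _ _ (hB ..) (hB ..) he2) hx2
    · exact absurd (by simpa using q 0 1 _ _ (hB ..) (hB ..) he2.symm) hxJ
    · rfl
    · exact absurd (by simpa using q 1 1 _ _ (hB ..) (hB ..) he2) hxJ
    · exact absurd (q 0 2 _ _ (hB ..) (hB ..) he2.symm) hx2
    · exact absurd (by simpa using q 1 1 _ _ (hB ..) (hB ..) he2.symm) hxJ
    · rfl
  subst mm
  obtain ⟨rfl, rfl, rfl⟩ := Binj h hN _ _ _ _ _ _ (mul_right_cancel he2)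
  rfl

end Cfsg.Agent.H1.Wr3
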