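import Cfsg.Agent.GS.Wr3a

set_option autoImplicit false

namespace Cfsg.Agent.H1.Wr3
open Equiv

def c9 : Perm (Fin 9) := swap (0 : Fin 9) 1 * swap 1 2 * swap 3 4 * swap 4 5 * swap 6 7 * swap 7 8
def a9 : Perm (Fin 9) := swap (0 : Fin 9) 1 * swap 1 2
def x9 : Perm (Fin 9) := swap (0 : Fin 9) 3 * swap 3 6 * swap 1 4 * swap 4 7 * swap 2 5 * swap 5 8
def t9 : Perm (Fin 9) := swap (3 : Fin 9) 6 * swap 4 7 * swap 5 8

abbrev C9 : Subgroup (Perm (Fin 9)) := Subgroup.centralizer {c9}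

theorem cardC9 : Nat.card C9 = 162 := by
  have h3 : orderOf c9 = 3 := orderOf_eq_prime (by decide +kernel) (by decide +kernel)
  obtain ⟨n, hn⟩ := Perm.cycleType_prime_order (σ := c9) (by rw [h3]; norm_num)
  have hs := Perm.sum_cycleType c9
  have h9 : c9.support.card = 9 := by decide +kernel
  rw [hn, h3, h9, Multiset.sum_replicate, smul_eq_mul] at hs
  obtain rfl : n = 2 := by omega
  rw [Perm.nat_card_centralizer, hn, h3]
  decide +kernel

def aC : C9 := ⟨a9, Subgroup.mem_centralizer_singleton_iff.2 (by decide +kernel)⟩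
def xC : C9 := ⟨x9, Subgroup.mem_centralizer_singleton_iff.2 (by decide +kernel)⟩
def tC : C9 := ⟨t9, Subgroup.mem_centralizer_singleton_iff.2 (by decide +kernel)⟩

theorem relC : Rel aC xC tC where
  ha := Subtype.ext (show a9 ^ 3 = 1 by decide +kernel)
  hx := Subtype.ext (show x9 ^ 3 = 1 by decide +kernel)
  ht := Subtype.ext (show t9 ^ 2 = 1 by decide +kernel)
  htx := Subtype.ext (show t9 * x9 = x9 ^ 2 * t9 by decide +kernel)
  hta := Subtype.ext (show t9 * a9 = a9 * t9 by decide +kernel)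
  c01 := Subtype.ext (show a9 * (x9 * a9 * x9 ^ 2) = (x9 * a9 * x9 ^ 2) * a9 by decide +kernel)
  c02 := Subtype.ext (show a9 * (x9 ^ 2 * a9 * x9) = (x9 ^ 2 * a9 * x9) * a9 by decide +kernel)
  c12 := Subtype.ext (show (x9 * a9 * x9 ^ 2) * (x9 ^ 2 * a9 * x9) = (x9 ^ 2 * a9 * x9) * (x9 * a9 * x9 ^ 2) by decide +kernel)

def f9 (u : U) (b : ℕ) : ℕ :=
  3 * (((u.2.2.2.2.1 + 1) * b + u.2.2.2.1.1) % 3) +
    (if ((u.2.2.2.2.1 + 1) * b + u.2.2.2.1.1) % 3 = 0 then u.1.1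
      else if ((u.2.2.2.2.1 + 1) * b + u.2.2.2.1.1) % 3 = 1 then u.2.1.1 else u.2.2.1.1)

theorem f9_eq : ∀ u : U, (F a9 x9 t9 u 0).1 = f9 u 0 ∧ (F a9 x9 t9 u 3).1 = f9 u 1 ∧ (F a9 x9 t9 u 6).1 = f9 u 2 := by
  decide +kernel

set_option synthInstance.maxSize 4096 in
set_option synthInstance.maxHeartbeats 400000 in
theorem f9_inj : ∀ u v : U, f9 u 0 = f9 v 0 → f9 u 1 = f9 v 1 → f9 u 2 = f9 v 2 → u = v := by
  decide +kernel

theorem bijC : Function.Bijective (F aC xC tC) := by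
  refine (Nat.bijective_iff_injective_and_card _).2 ⟨fun u v e => ?_, by rw [cardC9]; simp⟩
  have e' : F a9 x9 t9 u = F a9 x9 t9 v := congrArg Subtype.val e
  obtain ⟨h1, h2, h3⟩ := f9_eq u
  obtain ⟨k1, k2, k3⟩ := f9_eq v
  exact f9_inj u v (by rw [← h1, ← k1, e']) (by rw [← h2, ← k2, e']) (by rw [← h3, ← k3, e'])

end Cfsg.Agent.H1.Wr3
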